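import Cfsg.Agent.H883.BR.Defs
import Cfsg.Agent.H110.BR.SZ

/-!
# HUB BR (S5715, S5716): consequences of Schwartz-Zippel, general tools (helper886)

* `polyDeg_ad` (A1);
* `sz_pow` : Schwartz-Zippel for the powers `E ^ N` of a translation invariant space `E` of functions;
* `Cls E k Θ` : all coordinates of `Θ : Γ → End V` lie in `E ^ k`;
* words.
-/

set_option autoImplicit false

namespace Cfsg.Agent.H886.BR

open Cfsg.Agent.H883.BR

universe u v w

/-- A1 -/
theorem polyDeg_ad {K : Type u} [Field K] {F : Subfield K} {G : Type w} [Group G] {ι : Type*} {x : ι → F → G}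
    {V : Type v} [AddCommGroup V] [Module K V] {ρ : G →* Module.End K V} {e : ℕ} (hx : OneP F x)
    (h : PolyDeg ρ F x e) : PolyDeg (ad ρ) F x (2 * e) := by
  classical
  intro i
  obtain ⟨c, hc⟩ := h i
  have h0 : x i 0 = 1 := by
    have h1 := hx.add i 0 0
    rw [add_zero] at h1
    exact (mul_eq_left.1 h1.symm)
  have hinv : ∀ t : F, (x i t)⁻¹ = x i (-t) := by
    intro t
    rw [inv_eq_iff_mul_eq_one, ← hx.add, add_neg_cancel, h0]
  let L : ℕ × ℕ → Module.End K (Module.End K V) := fun p =>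
    (-1 : K) ^ p.2 • (LinearMap.mulLeft K (c p.1) ∘ₗ LinearMap.mulRight K (c p.2))
  have hL : ∀ p X, L p X = (-1 : K) ^ p.2 • (c p.1 * (X * c p.2)) := fun p X => rfl
  let s := Finset.range (e + 1) ×ˢ Finset.range (e + 1)
  refine ⟨fun l => ∑ p ∈ s.filter (fun p => p.1 + p.2 = l), L p, fun t => ?_⟩
  have h1 : ad ρ (x i t) = ∑ p ∈ s, (t : K) ^ (p.1 + p.2) • L p := by
    apply LinearMap.ext
    intro X
    rw [ad_apply, hinv, hc, hc, LinearMap.sum_apply, Finset.sum_mul, Finset.sum_mul, Finset.sum_product]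
    refine Finset.sum_congr rfl fun j _ => ?_
    rw [Finset.mul_sum]
    refine Finset.sum_congr rfl fun k _ => ?_
    rw [LinearMap.smul_apply, hL, smul_smul, smul_mul_assoc, smul_mul_assoc, mul_smul_comm, smul_smul, mul_assoc]
    congr 1
    rw [show (((-t : F) : F) : K) = -(t : K) from rfl, neg_pow, pow_add]
    ring
  rw [h1, ← Finset.sum_fiberwise_of_maps_to (t := Finset.range (2 * e + 1)) (g := fun p : ℕ × ℕ => p.1 + p.2)]
  · refine Finset.sum_congr rfl fun l _ => ?_
    rw [Finset.smul_sum]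
    refine Finset.sum_congr rfl fun p hp => ?_
    rw [(Finset.mem_filter.1 hp).2]
  · intro p hp
    rw [Finset.mem_product, Finset.mem_range, Finset.mem_range] at hp
    rw [Finset.mem_range]
    omega

section pow

variable {K : Type*} [Field K] {Γ : Type*}

theorem finrank_pow_le [Finite Γ] (E : Submodule K (Γ → K)) (N : ℕ) :
    Module.finrank K ↥(E ^ N) ≤ Module.finrank K E ^ N := by
  classical
  obtain ⟨s, hs1, hs2⟩ : ∃ s : Finset (Γ → K), Submodule.span K (s : Set (Γ → K)) = E ∧
      s.card ≤ Module.finrank K E := by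
    let b := Module.finBasis K E
    refine ⟨Finset.univ.image fun i => (b i : Γ → K), ?_, ?_⟩
    · rw [Finset.coe_image, Finset.coe_univ, Set.image_univ]
      have h1 : (Set.range fun i => (b i : Γ → K)) = E.subtype '' Set.range b := by
        rw [← Set.range_comp]
        rfl
      rw [h1, Submodule.span_image, b.span_eq, Submodule.map_top, Submodule.range_subtype]
    · refine Finset.card_image_le.trans ?_
      rw [Finset.card_univ, Fintype.card_fin]
  rw [← hs1, Submodule.span_pow, ← Finset.coe_pow]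
  refine (finrank_span_finset_le_card _).trans (Finset.card_pow_le.trans ?_)
  rw [hs1]
  exact Nat.pow_le_pow_left hs2 N

/-- right translation -/
def trn [Group Γ] (h : Γ) : (Γ → K) →ₐ[K] (Γ → K) where
  toFun f g := f (g * h)
  map_one' := rfl
  map_mul' _ _ := rfl
  map_zero' := rfl
  map_add' _ _ := rfl
  commutes' _ := rfl

theorem trn_apply [Group Γ] (h : Γ) (f : Γ → K) (g : Γ) : (trn h f : Γ → K) g = f (g * h) := rfl

theorem trn_mem_pow [Group Γ] {E : Submodule K (Γ → K)} {h : Γ} (hE : ∀ f ∈ E, (fun g => f (g * h)) ∈ E) (N : ℕ)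
    {f : Γ → K} (hf : f ∈ E ^ N) : (fun g => f (g * h)) ∈ E ^ N := by
  have h1 : E.map (trn (K := K) h).toLinearMap ≤ E := by
    rintro _ ⟨f, hf, rfl⟩
    exact hE f hf
  have h2 : (E ^ N).map (trn (K := K) h).toLinearMap ≤ E ^ N := by
    rw [Submodule.map_pow]
    exact pow_le_pow_left' h1 N
  exact h2 ⟨f, hf, rfl⟩

theorem poly_pow [Group Γ] {F : Subfield K} {E : Submodule K (Γ → K)} {g : Γ} {y : F → Γ} {D : ℕ}
    (hE : ∀ f ∈ E, ∃ p : Polynomial K, p.natDegree ≤ D ∧ ∀ t : F, f (g * y t) = p.eval (t : K)) (N : ℕ) :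
    ∀ f ∈ E ^ N, ∃ p : Polynomial K, p.natDegree ≤ N * D ∧ ∀ t : F, f (g * y t) = p.eval (t : K) := by
  induction N with
  | zero =>
    intro f hf
    rw [pow_zero, Submodule.mem_one] at hf
    obtain ⟨c, rfl⟩ := hf
    exact ⟨Polynomial.C c, by simp, fun t => by simp⟩
  | succ N ih =>
    intro f hf
    rw [pow_succ] at hf
    refine Submodule.mul_induction_on hf ?_ ?_
    · intro f₁ h₁ f₂ h₂
      obtain ⟨p, hp, hp'⟩ := ih f₁ h₁
      obtain ⟨p', hq, hq'⟩ := hE f₂ h₂
      refine ⟨p * p', Polynomial.natDegree_mul_le.trans ?_, fun t => ?_⟩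
      · calc _ ≤ N * D + D := add_le_add hp hq
          _ = _ := by ring
      · rw [Pi.mul_apply, hp', hq', Polynomial.eval_mul]
    · rintro f₁ f₂ ⟨p, hp, hp'⟩ ⟨p', hq, hq'⟩
      refine ⟨p + p', (Polynomial.natDegree_add_le _ _).trans (max_le hp hq), fun t => ?_⟩
      rw [Pi.add_apply, hp', hq', Polynomial.eval_add]

/-- **Schwartz-Zippel for the powers of `E`** -/
theorem sz_pow [Group Γ] [Finite Γ] {F : Subfield K} [Finite F] {ι : Type*} {x : ι → F → Γ} (hx : OneP F x)
    {E : Submodule K (Γ → K)} (hE : ∀ f ∈ E, ∀ i t, (fun g => f (g * x i t)) ∈ E) {D : ℕ}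
    (hD : ∀ f ∈ E, ∀ g i, ∃ p : Polynomial K, p.natDegree ≤ D ∧ ∀ t : F, f (g * x i t) = p.eval (t : K))
    {M : ℕ} (hM : Module.finrank K E ≤ M) {N : ℕ} {f : Γ → K} (hf : f ∈ E ^ N) (hf0 : ∃ g, f g ≠ 0) :
    Nat.card F * Nat.card {g : Γ // f g = 0} ≤ N * D * M ^ N * Nat.card Γ := by
  have hgen : Subgroup.closure {g : Γ | ∃ i t, g = x i t} = ⊤ := by
    rw [← hx.gen]
    congr 1
    ext g
    simp only [Set.mem_ofPred_eq, eq_comm]
  refine (Cfsg.Agent.H110.BR.sz F hx.add hgen (P := E ^ N) (D := N * D)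
    (fun f hf i t => trn_mem_pow (fun f hf => hE f hf i t) N hf)
    (fun f hf g i => poly_pow (fun f hf => hD f hf g i) N f hf) hf hf0).trans ?_
  exact Nat.mul_le_mul_right _ (Nat.mul_le_mul_left _
    ((finrank_pow_le E N).trans (Nat.pow_le_pow_left hM N)))

theorem pow_mono_right {E : Submodule K (Γ → K)} (h1 : (1 : Γ → K) ∈ E) {a b : ℕ} (hab : a ≤ b) :
    E ^ a ≤ E ^ b := by
  obtain ⟨c, rfl⟩ := Nat.exists_eq_add_of_le hab
  intro f hf
  rw [pow_add]
  have h2 : (1 : Γ → K) ∈ E ^ c := by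
    have := Submodule.pow_mem_pow E h1 c
    rwa [one_pow] at this
  have := Submodule.mul_mem_mul hf h2
  rwa [mul_one] at this

variable {V : Type*} [AddCommGroup V] [Module K V]

/-- all coordinates of `Θ` lie in `E ^ k` -/
def Cls (E : Submodule K (Γ → K)) (k : ℕ) (Θ : Γ → V) : Prop :=
  ∀ l : Module.Dual K V, (fun z => l (Θ z)) ∈ E ^ k

theorem Cls.mono {E : Submodule K (Γ → K)} (h1 : (1 : Γ → K) ∈ E) {a b : ℕ} (hab : a ≤ b) {Θ : Γ → V}
    (h : Cls E a Θ) : Cls E b Θ := fun l => pow_mono_right h1 hab (h l)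

theorem cls_const (E : Submodule K (Γ → K)) (X : V) : Cls E 0 (fun _ => X) := by
  intro l
  rw [pow_zero, Submodule.mem_one]
  exact ⟨l X, rfl⟩

theorem Cls.map {E : Submodule K (Γ → K)} {k : ℕ} {Θ : Γ → V} (h : Cls E k Θ) {V' : Type*} [AddCommGroup V']
    [Module K V'] (L : V →ₗ[K] V') : Cls E k (fun z => L (Θ z)) := fun l => h (l ∘ₗ L)

theorem Cls.add {E : Submodule K (Γ → K)} {k : ℕ} {Θ Θ' : Γ → V} (h : Cls E k Θ) (h' : Cls E k Θ') :
    Cls E k (fun z => Θ z + Θ' z) := by
  intro l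
  have e : (fun z => l (Θ z + Θ' z)) = (fun z => l (Θ z)) + fun z => l (Θ' z) := by
    funext z
    exact map_add l _ _
  rw [e]
  exact (E ^ k).add_mem (h l) (h' l)

theorem Cls.smul {E : Submodule K (Γ → K)} {k : ℕ} {Θ : Γ → V} (c : K) (h : Cls E k Θ) :
    Cls E k (fun z => c • Θ z) := h.map (c • LinearMap.id)

/-- products -/
theorem Cls.mul {A : Type*} [Ring A] [Algebra K A] [Module.Finite K A] {E : Submodule K (Γ → K)} {a b : ℕ}
    {Θ Θ' : Γ → A} (h : Cls E a Θ) (h' : Cls E b Θ') : Cls E (a + b) (fun z => Θ z * Θ' z) := by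
  intro l
  let B := Module.finBasis K A
  have e : (fun z => l (Θ z * Θ' z)) =
      ∑ p, ∑ q, (l (B p * B q)) • ((fun z => B.coord p (Θ z)) * fun z => B.coord q (Θ' z)) := by
    funext z
    rw [Finset.sum_apply]
    conv_lhs => rw [← B.sum_repr (Θ z), ← B.sum_repr (Θ' z), Finset.sum_mul, map_sum]
    refine Finset.sum_congr rfl fun p _ => ?_
    rw [Finset.mul_sum, map_sum, Finset.sum_apply]
    refine Finset.sum_congr rfl fun q _ => ?_
    rw [smul_mul_assoc, mul_smul_comm, smul_smul, map_smul, smul_eq_mul, Pi.smul_apply, Pi.mul_apply, smul_eq_mul,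
      Module.Basis.coord_apply, Module.Basis.coord_apply, mul_comm]
  rw [e]
  refine Submodule.sum_mem _ fun p _ => Submodule.sum_mem _ fun q _ => Submodule.smul_mem _ _ ?_
  rw [pow_add]
  exact Submodule.mul_mem_mul (h _) (h' _)

/-- determinants -/
theorem det_mem {E : Submodule K (Γ → K)} {k r : ℕ} {A : Γ → Matrix (Fin r) (Fin r) K}
    (hA : ∀ i j, (fun z => A z i j) ∈ E ^ k) : (fun z => (A z).det) ∈ E ^ (k * r) := by
  classical
  have h1 : ∀ (s : Finset (Fin r)) (φ : Fin r → Γ → K), (∀ i, φ i ∈ E ^ k) → ∏ i ∈ s, φ i ∈ E ^ (k * s.card) := by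
    intro s φ hφ
    induction s using Finset.induction_on with
    | empty => simpa using (Submodule.mem_one.2 ⟨1, map_one _⟩ : (1 : Γ → K) ∈ (1 : Submodule K (Γ → K)))
    | insert a s ha ih =>
      rw [Finset.prod_insert ha, Finset.card_insert_of_notMem ha, mul_add, mul_one, add_comm, pow_add]
      exact Submodule.mul_mem_mul (hφ a) ih
  have e : (fun z => (A z).det) = ∑ σ : Equiv.Perm (Fin r), ((Equiv.Perm.sign σ : ℤ) : K) • ∏ i, fun z => A z (σ i) i := by
    funext z
    rw [Matrix.det_apply', Finset.sum_apply]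
    refine Finset.sum_congr rfl fun σ _ => ?_
    rw [Pi.smul_apply, Finset.prod_apply, smul_eq_mul]
  rw [e]
  refine Submodule.sum_mem _ fun σ _ => Submodule.smul_mem _ _ ?_
  have := h1 Finset.univ (fun i z => A z (σ i) i) (fun i => hA _ _)
  rwa [Finset.card_univ, Fintype.card_fin] at this

end pow

/-! ## words -/

section word

/-- the word `w` in `X`, `Y` -/
def wd {M : Type*} [Monoid M] (X Y : M) (w : List Bool) : M := (w.map fun c => cond c X Y).prod

theorem wd_nil {M : Type*} [Monoid M] (X Y : M) : wd X Y [] = 1 := rfl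

theorem wd_cons {M : Type*} [Monoid M] (X Y : M) (c : Bool) (w : List Bool) :
    wd X Y (c :: w) = cond c X Y * wd X Y w := by
  rw [wd, List.map_cons, List.prod_cons]
  rfl

theorem wd_append {M : Type*} [Monoid M] (X Y : M) (w w' : List Bool) : wd X Y (w ++ w') = wd X Y w * wd X Y w' := by
  rw [wd, List.map_append, List.prod_append]
  rfl

theorem map_wd {M M' : Type*} [Monoid M] [Monoid M'] (R : M →* M') (X Y : M) (w : List Bool) :
    R (wd X Y w) = wd (R X) (R Y) w := by
  induction w with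
  | nil => rw [wd_nil, wd_nil, map_one]
  | cons c w ih => rw [wd_cons, wd_cons, map_mul, ih]; cases c <;> rfl

theorem wd_mem {G : Type*} [Group G] (a b : G) (w : List Bool) : wd a b w ∈ Subgroup.closure {a, b} := by
  induction w with
  | nil => exact one_mem _
  | cons c w ih =>
    rw [wd_cons]
    refine mul_mem ?_ ih
    cases c
    · exact Subgroup.subset_closure (Or.inr rfl)
    · exact Subgroup.subset_closure (Or.inl rfl)

/-- in a finite group the subgroup generated by `a`, `b` consists of words -/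
theorem exists_wd {G : Type*} [Group G] [Finite G] {a b g : G} (hg : g ∈ Subgroup.closure {a, b}) :
    ∃ w : List Bool, g = wd a b w := by
  induction hg using Subgroup.closure_induction with
  | mem y hy =>
    rcases hy with rfl | hy
    · exact ⟨[true], by rw [wd_cons, wd_nil, mul_one]; rfl⟩
    · rw [Set.mem_singleton_iff] at hy
      exact ⟨[false], by rw [wd_cons, wd_nil, mul_one, hy]; rfl⟩
  | one => exact ⟨[], rfl⟩
  | mul y z _ _ hy hz =>
    obtain ⟨w, rfl⟩ := hy
    obtain ⟨w', rfl⟩ := hz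
    exact ⟨w ++ w', (wd_append _ _ _ _).symm⟩
  | inv y _ hy =>
    obtain ⟨w, rfl⟩ := hy
    have h2 : ∀ m : ℕ, ∃ w', wd a b w ^ m = wd a b w' := by
      intro m
      induction m with
      | zero => exact ⟨[], by rw [pow_zero, wd_nil]⟩
      | succ m ih =>
        obtain ⟨w', hw'⟩ := ih
        exact ⟨w' ++ w, by rw [pow_succ, hw', wd_append]⟩
    have h4 : (wd a b w)⁻¹ = wd a b w ^ (orderOf (wd a b w) - 1) := by
      rw [inv_eq_iff_mul_eq_one, ← pow_succ', Nat.sub_add_cancel (orderOf_pos _), pow_orderOf_eq_one]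
    rw [h4]
    exact h2 _

/-- the words of length `≤ dim A` span all words -/
theorem wd_mem_span {K A : Type*} [Field K] [Ring A] [Algebra K A] [Module.Finite K A] (X Y : A) {N : ℕ}
    (hN : Module.finrank K A ≤ N) (w : List Bool) :
    wd X Y w ∈ Submodule.span K {Z : A | ∃ w' : List Bool, w'.length ≤ N ∧ Z = wd X Y w'} := by
  let U : ℕ → Submodule K A := fun k => Submodule.span K {Z : A | ∃ w' : List Bool, w'.length ≤ k ∧ Z = wd X Y w'}
  have hmono : ∀ {a b : ℕ}, a ≤ b → U a ≤ U b := by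
    intro a b hab
    refine Submodule.span_mono ?_
    rintro _ ⟨w', hw', rfl⟩
    exact ⟨w', hw'.trans hab, rfl⟩
  have hmul : ∀ k (c : Bool), ∀ Z ∈ U k, cond c X Y * Z ∈ U (k + 1) := by
    intro k c Z hZ
    refine Submodule.span_induction (p := fun Z _ => cond c X Y * Z ∈ U (k + 1)) ?_ ?_ ?_ ?_ hZ
    · rintro _ ⟨w', hw', rfl⟩
      exact Submodule.subset_span ⟨c :: w', by rw [List.length_cons]; omega, (wd_cons _ _ _ _).symm⟩
    · rw [mul_zero]; exact zero_mem _
    · intro Z Z' _ _ h h'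
      rw [mul_add]; exact add_mem h h'
    · intro r Z _ h
      rw [mul_smul_comm]; exact Submodule.smul_mem _ _ h
  -- the chain stabilises
  obtain ⟨j, hjN, hj⟩ : ∃ j ≤ N, U j = U (j + 1) := by
    by_contra hcon
    push Not at hcon
    have h1 : ∀ k ≤ N + 1, k ≤ Module.finrank K (U k) := by
      intro k
      induction k with
      | zero => intro _; exact Nat.zero_le _
      | succ k ih =>
        intro hk
        have h2 := ih (by omega)
        have h3 : U k < U (k + 1) := lt_of_le_of_ne (hmono (Nat.le_succ k)) (hcon k (by omega))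
        have h4 := Submodule.finrank_lt_finrank_of_lt h3
        omega
    have h2 := h1 (N + 1) le_rfl
    have h3 := Submodule.finrank_le (U (N + 1))
    omega
  have hall : ∀ w : List Bool, wd X Y w ∈ U j := by
    intro w
    induction w with
    | nil => exact Submodule.subset_span ⟨[], Nat.zero_le _, rfl⟩
    | cons c w ih =>
      rw [wd_cons, hj]
      exact hmul j c _ ih
  exact hmono hjN (hall w)

theorem Cls.wd {K Γ : Type*} [Field K] {A : Type*} [Ring A] [Algebra K A] [Module.Finite K A]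
    {E : Submodule K (Γ → K)} {c : ℕ} {Θ Θ' : Γ → A} (h : Cls E c Θ) (h' : Cls E c Θ') (w : List Bool) :
    Cls E (c * w.length) (fun z => wd (Θ z) (Θ' z) w) := by
  induction w with
  | nil => simpa [wd_nil] using cls_const E (1 : A)
  | cons b w ih =>
    have e : (fun z => BR.wd (Θ z) (Θ' z) (b :: w)) = fun z => cond b (Θ z) (Θ' z) * BR.wd (Θ z) (Θ' z) w := by
      funext z
      rw [wd_cons]
    rw [e, List.length_cons, mul_add, mul_one, add_comm]
    cases b
    · exact h'.mul ih
    · exact h.mul ih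

end word

end Cfsg.Agent.H886.BR
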